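import Cfsg.Agent.H282.SK.Def
import Cfsg.Agent.H369.Ti.Facts
import Cfsg.Agent.H246.TitsInner

/-!
# S3010 (Sidki pairs): the row Tits, abstract part (helper173)

* `top_of_invInner` : all involutory automorphisms of `K` are inner: `K = ⊤`;
* `not_five` : `V` has no element commuting with an element of order 5 (if `|C(5A)| = 50` and `25 ∤ |C(v)|`);
* `exists_six` : in `13 : 6` the involution inverts an element of order 13 and commutes with an element of order 3.
-/

set_option autoImplicit false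

universe u v

open Subgroup Cfsg

namespace Cfsg.Agent.H173.SK.Tits

open Cfsg.Agent.H282.SK Cfsg.Agent.H58.Rec Cfsg.Agent.H455.Isolated

variable {G : Type u} [Group G] [Finite G] {V K : Subgroup G}

/-- all involutory automorphisms of `K` are inner: `K = ⊤` -/
theorem top_of_invInner (h : Cx V K) (inn : H246.TitsInner.InvInner K) : K = ⊤ := by
  have := h.norm
  have hV : V ≤ K := by
    intro g hg
    obtain ⟨k, hk⟩ := inn (MulAut.conjNormal g) (by rw [← map_mul, h.sq hg, map_one])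
    have h1 : (k : G)⁻¹ * g = 1 := by
      apply h.eq_one_of_comm
      intro y hy
      have h2 := congrArg (fun ψ : MulAut K => ((ψ ⟨y, hy⟩ : K) : G)) hk
      simp only [MulAut.conjNormal_apply, MulAut.conj_apply] at h2
      have h3 : g * y * g⁻¹ = k * y * (k : G)⁻¹ := h2
      calc (k : G)⁻¹ * g * y = (k : G)⁻¹ * (g * y * g⁻¹) * g := by group
        _ = (k : G)⁻¹ * (k * y * (k : G)⁻¹) * g := by rw [h3]
        _ = y * ((k : G)⁻¹ * g) := by group
    have h2 : g = k := by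
      calc g = k * ((k : G)⁻¹ * g) := by group
        _ = k := by rw [h1, mul_one]
    rw [h2]
    exact k.2
  rw [← h.sup, sup_eq_left.2 hV]

/-- the Sylow 5-subgroup of a group of order 50 -/
theorem exists_P (C : Subgroup G) (hC : Nat.card C = 50) : ∃ P : Subgroup G, P ≤ C ∧ Nat.card P = 25 ∧
    (∀ c ∈ C, ∀ p ∈ P, c * p * c⁻¹ ∈ P) ∧ (∀ p ∈ P, ∀ q ∈ P, p * q = q * p) ∧
    ∀ x ∈ C, orderOf x = 5 → x ∈ P := by
  have hf : Fact (Nat.Prime 5) := ⟨by norm_num⟩
  obtain ⟨P⟩ : Nonempty (Sylow 5 C) := inferInstance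
  have hP : Nat.card P = 25 := by
    rw [Sylow.card_eq_multiplicity, hC]
    have : (50 : ℕ).factorization 5 = 2 := by
      rw [show (50 : ℕ) = 5 ^ 2 * 2 by norm_num, Nat.factorization_mul (by norm_num) (by norm_num), Finsupp.add_apply,
        Nat.Prime.factorization_pow (by norm_num), Finsupp.single_eq_same,
        Nat.factorization_eq_zero_of_not_dvd (by norm_num)]
    rw [this]
    norm_num
  have hi : (P : Subgroup C).index = 2 := by
    have h1 := (P : Subgroup C).card_mul_index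
    have h2 : Nat.card (P : Subgroup C) = 25 := hP
    rw [h2, hC] at h1
    omega
  have hn : (P : Subgroup C).Normal := normal_of_index_eq_two hi
  refine ⟨(P : Subgroup C).map C.subtype, map_subtype_le _, ?_, ?_, ?_, ?_⟩
  · rw [card_map_of_injective C.subtype_injective]
    exact hP
  · rintro c hc _ ⟨p, hp, rfl⟩
    exact ⟨⟨c, hc⟩ * p * ⟨c, hc⟩⁻¹, hn.conj_mem p hp ⟨c, hc⟩, rfl⟩
  · have hcm : IsMulCommutative (P : Subgroup C) :=
      IsPGroup.isMulCommutative_of_card_eq_prime_sq (p := 5) (by rw [show (5 ^ 2 : ℕ) = 25 by norm_num]; exact hP)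
    rintro _ ⟨p, hp, rfl⟩ _ ⟨q, hq, rfl⟩
    have := hcm.is_comm.comm (⟨p, hp⟩ : (P : Subgroup C)) ⟨q, hq⟩
    exact congrArg (fun t : (P : Subgroup C) => ((t : C) : G)) this
  · intro x hx ho
    refine ⟨⟨x, hx⟩, ?_, rfl⟩
    have hz : IsPGroup 5 (zpowers (⟨x, hx⟩ : C)) :=
      IsPGroup.of_card (n := 1) (by rw [Nat.card_zpowers, orderOf_mk, ho, pow_one])
    obtain ⟨Q, hQ⟩ := hz.exists_le_sylow
    obtain ⟨g, hg⟩ := MulAction.exists_smul_eq C P Q
    have h1 : (⟨x, hx⟩ : C) ∈ (Q : Subgroup C) := hQ (mem_zpowers _)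
    rw [← hg, Sylow.coe_subgroup_smul, Subgroup.mem_pointwise_smul_iff_inv_smul_mem, ← map_inv, MulAut.smul_def,
      MulAut.conj_apply] at h1
    have h2 := hn.conj_mem _ h1 g
    have e : g * (g⁻¹ * ⟨x, hx⟩ * g⁻¹⁻¹) * g⁻¹ = ⟨x, hx⟩ := by group
    rwa [e] at h2

/-- two involutions of a group of order 50 are conjugate -/
theorem conj_in (C : Subgroup G) (hC : Nat.card C = 50) {v w : G} (hv : v ∈ C) (hw : w ∈ C) (hv2 : v * v = 1)
    (hv1 : v ≠ 1) (hw2 : w * w = 1) (hw1 : w ≠ 1) : ∃ g ∈ C, g * w * g⁻¹ = v := by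
  have ho : orderOf (⟨v, hv⟩ : C) = 2 := by
    rw [orderOf_mk]
    exact orderOf_eq_prime (by rw [pow_two, hv2]) hv1
  obtain ⟨g, hg⟩ := H20.FrobTits.exists_conj_mem (G := C) (p := 2) (a := 1) Nat.prime_two (R := zpowers ⟨v, hv⟩)
    (by rw [Nat.card_zpowers, ho, pow_one]) (by
      intro hd
      have h1 := (zpowers (⟨v, hv⟩ : C)).card_mul_index
      rw [Nat.card_zpowers, ho, hC] at h1
      omega) (b := 1) (y := ⟨w, hw⟩) (by
        rw [pow_one, pow_two]
        exact Subtype.ext hw2)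
  refine ⟨g, g.2, ?_⟩
  obtain ⟨n, hn⟩ := mem_zpowers_iff.1 hg
  have h1 : v ^ n = g * w * (g : G)⁻¹ := congrArg Subtype.val hn
  rw [← h1]
  rcases Int.even_or_odd' n with ⟨m, hm | hm⟩
  · exfalso
    rw [hm, zpow_mul, zpow_ofNat, pow_two, hv2, one_zpow] at h1
    apply hw1
    calc w = (g : G)⁻¹ * (g * w * (g : G)⁻¹) * g := by group
      _ = 1 := by rw [← h1]; group
  · rw [hm, zpow_add, zpow_mul, zpow_ofNat, pow_two, hv2, one_zpow, one_mul, zpow_one]

/-- **No element of `V` commutes with an element of order 5.** -/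
theorem not_five (h : Cx V K) (c50 : ∀ y : G, orderOf y = 5 → Nat.card (centralizer ({y} : Set G)) = 50)
    (h10 : ∀ g : G, 5 ∣ orderOf g → orderOf g ∣ 10) {v x : G} (hv : v ∈ V) (hv1 : v ≠ 1) (hx : orderOf x = 5)
    (hc : v * x = x * v) (h25 : ¬ 25 ∣ Nat.card (centralizer ({v} : Set G))) : False := by
  have hv2 := h.sq hv
  have hvi := h.inv_eq hv
  obtain ⟨P, hPC, hP, hPn, hPc, hPx⟩ := exists_P _ (c50 x hx)
  have hvC : v ∈ centralizer ({x} : Set G) := mem_centralizer_singleton_iff.2 hc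
  have hxP : x ∈ P := hPx x (mem_centralizer_singleton_iff.2 rfl) hx
  obtain ⟨p, hp, hpv⟩ : ∃ p ∈ P, v * p ≠ p * v := by
    by_contra hcon
    push Not at hcon
    apply h25
    rw [← hP]
    refine card_dvd_of_le fun p hp => ?_
    rw [mem_centralizer_singleton_iff]
    exact (hcon p hp).symm
  set y := v * p * v⁻¹ * p⁻¹ with hy
  have hvp : v * p * v⁻¹ ∈ P := hPn v hvC p hp
  have hyP : y ∈ P := mul_mem hvp (inv_mem hp)
  have hy1 : y ≠ 1 := by
    intro h1
    apply hpv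
    rw [hy, mul_inv_eq_one, mul_inv_eq_iff_eq_mul] at h1
    exact h1
  have hyi : v * y * v⁻¹ = y⁻¹ := by
    calc v * y * v⁻¹ = (v * v) * p * v⁻¹ * (p⁻¹ * v⁻¹) := by rw [hy]; group
      _ = p * v⁻¹ * (p⁻¹ * v⁻¹) := by rw [hv2, one_mul]
      _ = p * v * (p⁻¹ * v⁻¹) := by rw [hvi]
      _ = y⁻¹ := by rw [hy]; group
  have hoy : orderOf y = 5 := by
    have h1 : orderOf y ∣ 25 := by
      have := orderOf_dvd_natCard (⟨y, hyP⟩ : P)
      rwa [orderOf_mk, hP] at this
    have h5 : 5 ∣ orderOf y := by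
      rw [show (25 : ℕ) = 5 ^ 2 by norm_num] at h1
      obtain ⟨k, hk, hk'⟩ := (Nat.dvd_prime_pow (by norm_num : Nat.Prime 5)).1 h1
      rcases Nat.eq_zero_or_pos k with h0 | h0
      · rw [h0, pow_zero, orderOf_eq_one_iff] at hk'
        exact absurd hk' hy1
      · rw [hk']; exact dvd_pow_self 5 h0.ne'
    have h2 := Nat.dvd_gcd h1 (h10 y h5)
    exact Nat.dvd_antisymm h2 h5
  obtain ⟨w, hw, hw1, hwy, hwO⟩ := h.t1 hv hv1 (x := y) (by rw [hoy]; decide) hyi
  -- `w` centralizes `x`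
  obtain ⟨P', hPC', hP', hPn', hPc', hPx'⟩ := exists_P _ (c50 y hoy)
  have hxy : x * y = y * x := hPc x hxP y hyP
  have hxP' : x ∈ P' := hPx' x (mem_centralizer_singleton_iff.2 hxy) hx
  have hwx : Commute w x := by
    refine commute_of_odd_comm hwO (y := x) (mem_inf.2 ⟨mem_centralizer_singleton_iff.2 hc.symm,
      mem_centralizer_singleton_iff.2 hxy⟩) ?_
    have h1 : w * x * w⁻¹ * x⁻¹ ∈ P' :=
      mul_mem (hPn' w (mem_centralizer_singleton_iff.2 hwy.eq) x hxP') (inv_mem hxP')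
    have h2 := orderOf_dvd_natCard (⟨_, h1⟩ : P')
    rw [orderOf_mk, hP'] at h2
    exact Odd.of_dvd_nat (by decide) h2
  -- so `w` centralizes `P`
  have hPw : P ≤ centralizer ({w} : Set G) := by
    have h1 : Nat.card (P ⊓ centralizer ({w} : Set G) : Subgroup G) ∣ 5 ^ 2 := by
      rw [show (5 ^ 2 : ℕ) = 25 by norm_num, ← hP]
      exact card_dvd_of_le inf_le_left
    have hxI : zpowers x ≤ P ⊓ centralizer ({w} : Set G) := by
      rw [zpowers_le]
      exact ⟨hxP, mem_centralizer_singleton_iff.2 hwx.eq.symm⟩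
    have hyI : y ∈ P ⊓ centralizer ({w} : Set G) := ⟨hyP, mem_centralizer_singleton_iff.2 hwy.eq.symm⟩
    have h5 : 5 ∣ Nat.card (P ⊓ centralizer ({w} : Set G) : Subgroup G) := by
      have := card_dvd_of_le hxI
      rwa [Nat.card_zpowers, hx] at this
    have hne : Nat.card (P ⊓ centralizer ({w} : Set G) : Subgroup G) ≠ 5 := by
      intro h6
      have h7 : zpowers x = P ⊓ centralizer ({w} : Set G) := by
        apply eq_of_le_of_card_ge hxI
        rw [Nat.card_zpowers, hx, h6]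
      rw [← h7] at hyI
      obtain ⟨n, hn⟩ := mem_zpowers_iff.1 hyI
      have h8 : v * y * v⁻¹ = y := by
        rw [← hn]
        have : Commute v (x ^ n) := (show Commute v x from hc).zpow_right n
        rw [this.eq]; group
      rw [hyi] at h8
      have h9 : y ^ 2 = 1 := by
        rw [pow_two]
        nth_rewrite 1 [← h8]
        group
      have h10 := orderOf_dvd_of_pow_eq_one h9
      rw [hoy] at h10
      norm_num at h10
    obtain ⟨k, hk, hk'⟩ := (Nat.dvd_prime_pow (by norm_num : Nat.Prime 5)).1 h1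
    have hk2 : k = 2 := by
      interval_cases k
      · rw [hk'] at h5; norm_num at h5
      · exact absurd hk' hne
      · rfl
    rw [hk2] at hk'
    have h11 : P ⊓ centralizer ({w} : Set G) = P := eq_of_le_of_card_ge inf_le_left (by rw [hP, hk']; norm_num)
    rw [← h11]
    exact inf_le_right
  -- `v` and `w` are conjugate
  obtain ⟨g, -, hg⟩ := conj_in _ (c50 x hx) hvC (mem_centralizer_singleton_iff.2 hwx.eq) hv2 hv1 (h.sq hw) hw1
  apply h25
  rw [← hP, ← card_map_of_injective (f := (MulAut.conj g).toMonoidHom) (MulAut.conj g).injective]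
  refine card_dvd_of_le ?_
  rintro _ ⟨p, hp, rfl⟩
  rw [mem_centralizer_singleton_iff]
  have h1 := mem_centralizer_singleton_iff.1 (hPw hp)
  show g * p * g⁻¹ * v = v * (g * p * g⁻¹)
  rw [← hg]
  calc g * p * g⁻¹ * (g * w * g⁻¹) = g * (p * w) * g⁻¹ := by group
    _ = g * (w * p) * g⁻¹ := by rw [h1]
    _ = g * w * g⁻¹ * (g * p * g⁻¹) := by group

/-- the involution of `13 : 6` -/
theorem exists_six {X : Type v} [Group X] [Finite X] (hc : Nat.card X = 17971200) (hf : HasFrob X 13 6) :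
    ∃ i a s : X, i * i = 1 ∧ i ≠ 1 ∧ orderOf a = 13 ∧ i * a * i⁻¹ = a⁻¹ ∧ orderOf s = 3 ∧ s * i = i * s := by
  obtain ⟨T, c, hT, hT1, hcT, ho, hfr⟩ := hf
  have hp : Fact (Nat.Prime 13) := ⟨by norm_num⟩
  have hT13 : Nat.card T = 13 := by
    obtain ⟨n, hn⟩ := IsPGroup.iff_card.1 hT
    have h1 := card_subgroup_dvd_card T
    rw [hn, hc] at h1
    have h2 : n < 2 := by
      by_contra h2
      have h3 : 13 ^ 2 ∣ 13 ^ n := pow_dvd_pow 13 (by omega)
      exact absurd (h3.trans h1) (by norm_num)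
    rw [hn]
    interval_cases n
    · exact absurd (card_eq_one.1 (by rw [hn]; rfl)) hT1
    · norm_num
  have hcyc : IsMulCommutative T := by
    have := isCyclic_of_prime_card hT13
    exact IsCyclic.isMulCommutative
  obtain ⟨a, ha, ha1⟩ : ∃ a ∈ T, a ≠ 1 := by
    by_contra hcon
    push Not at hcon
    exact hT1 ((Subgroup.eq_bot_iff_forall T).2 hcon)
  have hoa : orderOf a = 13 := by
    have h1 := orderOf_dvd_natCard (⟨a, ha⟩ : T)
    rw [orderOf_mk, hT13] at h1
    rcases (Nat.dvd_prime hp.out).1 h1 with h | h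
    · exact absurd (orderOf_eq_one_iff.1 h) ha1
    · exact h
  have hi2 : c ^ 3 * c ^ 3 = 1 := by
    rw [← pow_add, show 3 + 3 = 6 by norm_num, ← ho, pow_orderOf_eq_one]
  have hcn : c ^ 3 ∈ normalizer (T : Set X) := pow_mem hcT 3
  have hia : c ^ 3 * a * (c ^ 3)⁻¹ ∈ T := (mem_normalizer_iff.1 hcn a).1 ha
  have hcomm : ∀ p ∈ T, ∀ q ∈ T, p * q = q * p := by
    intro p hp q hq
    exact congrArg (fun t : T => (t : X)) (hcyc.is_comm.comm (⟨p, hp⟩ : T) ⟨q, hq⟩)
  have hinv : c ^ 3 * a * (c ^ 3)⁻¹ * a = 1 := by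
    refine hfr 3 (by norm_num) (by norm_num) _ (mul_mem hia ha) ?_
    have h1 : (c ^ 3)⁻¹ = c ^ 3 := inv_eq_of_mul_eq_one_right hi2
    calc c ^ 3 * a * (c ^ 3)⁻¹ * a * c ^ 3 = (c ^ 3 * a * (c ^ 3)⁻¹) * a * c ^ 3 := by group
      _ = a * (c ^ 3 * a * (c ^ 3)⁻¹) * c ^ 3 := by rw [hcomm _ hia a ha]
      _ = a * c ^ 3 * a := by group
      _ = (c ^ 3 * c ^ 3) * (a * c ^ 3 * a) := by rw [hi2, one_mul]
      _ = c ^ 3 * (c ^ 3 * a * c ^ 3 * a) := by group
      _ = c ^ 3 * (c ^ 3 * a * (c ^ 3)⁻¹ * a) := by rw [h1]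
  refine ⟨c ^ 3, a, c ^ 2, hi2, ?_, hoa, mul_eq_one_iff_eq_inv.1 hinv, ?_, ?_⟩
  · intro h1
    have h2 := orderOf_dvd_of_pow_eq_one h1
    rw [ho] at h2
    norm_num at h2
  · rw [orderOf_pow_of_dvd (by norm_num) (by rw [ho]; norm_num), ho]
  · rw [← pow_add, ← pow_add]

end Cfsg.Agent.H173.SK.Tits
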